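import Cfsg.Agent.H383.Cube.Basic
import Cfsg.Agent.H999.IF.EngB
import Cfsg.Agent.H209.IF.Kill

/-!
# S5719, `|A|` odd: the criterion with the centralisers of the outer involutions (helper546)

`A` of odd order, `σ ∈ Γ` of order two: `σ` is outer, `|C_T(σ)|₂ ≤ f(σ)` and `|C_T(σ)| ≤ f(σ) |A|`; with `f(σ) ^ 6 |A| < |T|`.

* `exists_outer` : the outer involution and the inequalities;
* `killO_of` : it is enough that `2 ^ k ∣ |C_T(σ)|`, `c ≤ |C_T(σ)|` for the outer involutions `σ`, and `|T| ≤ c 2 ^ (5 k)`;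
* `killO_cube` : the same with `CubeBound T` and `|T| ^ 2 ≤ 2 ^ (15 k)`;
* `killO_three` : the same with `|T| ≤ 3 * 2 ^ (6 k)`;
* `killO_inner` : no outer automorphisms;
* `KillO.congr` : transport.
-/

set_option autoImplicit false
set_option linter.unusedSectionVars false

namespace Cfsg.Agent.H546.IFO

open MulAction Subgroup Cfsg.Agent.H209.Fxy Cfsg.Agent.H999.IFB Cfsg.Agent.H383.Cube

universe u v

section

variable {T : Type u} [Group T]

theorem KillO.congr {T' : Type v} [Group T'] (e : T ≃* T') (h : KillO T) : KillO T' := by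
  intro A Γ hA ho
  refine h _ _ (hA.map e.symm) ?_
  rwa [Nat.card_congr (A.equivMapOfInjective e.symm.toMonoidHom e.symm.injective).toEquiv.symm]

/-- the property of the outer involutions of `T` -/
def OutP (T : Type u) [Group T] (P : MulAut T → Prop) : Prop :=
  ∀ σ : MulAut T, orderOf σ = 2 → (∀ x, σ ≠ MulAut.conj x) → P σ

/-- `2 ^ k` divides `|C_T(σ)|` if `σ` centralises a subgroup `B` of order `2 ^ k` -/
theorem dvd_fix [Finite T] {σ : MulAut T} {k : ℕ} {B : Subgroup T} (hB : ∀ b ∈ B, σ b = b) (hc : 2 ^ k ∣ Nat.card B) :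
    2 ^ k ∣ Nat.card (fix σ) :=
  hc.trans (Subgroup.card_dvd_of_le (fun b hb => hB b hb))

end

variable {T : Type u} [Group T] [Finite T] {A : Subgroup T} {Γ : Subgroup (MulAut T)}

/-- **The outer involution.** -/
theorem exists_outer [IsSimpleGroup T] (hna : ∃ a b : T, a * b ≠ b * a) (h : IF A Γ) (hodd : Odd (Nat.card A)) :
    ∃ σ ∈ Γ, orderOf σ = 2 ∧ (∀ x, σ ≠ MulAut.conj x) ∧ 3 ≤ Nat.card A ∧
      (∀ k : ℕ, 2 ^ k ∣ Nat.card (fix σ) → 2 ^ k ≤ fx A σ) ∧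
      (∃ d : ℕ, d ∣ Nat.card A ∧ d ∣ Nat.card (fix σ) ∧ Nat.card (fix σ) ≤ fx A σ * d) ∧
      fx A σ ^ 6 * Nat.card A < Nat.card T := by
  obtain ⟨σ, hσ, h2, -⟩ := h.ex
  have hout : ∀ x, σ ≠ MulAut.conj x := by
    rintro x rfl
    have hx : x ∈ A := (h.conj x).1 hσ
    rw [orderOf_conj hna] at h2
    have h3 : 2 ∣ Nat.card A := by
      rw [← h2, ← Subgroup.orderOf_mk x hx]
      exact orderOf_dvd_natCard _
    exact (Nat.not_even_iff_odd.2 hodd) (even_iff_two_dvd.2 h3)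
  have ha : 0 < Nat.card A := Nat.card_pos
  have ha3 : 3 ≤ Nat.card A := by
    by_contra hlt
    have h1 : Nat.card A = 1 := by
      obtain ⟨m, hm⟩ := hodd
      omega
    exact h.ne_bot (Subgroup.card_eq_one.1 h1)
  have hE := (IF.E1 h hσ h2 (B := fix σ) (fun b hb => hb)).1
  have hmul : A.relIndex (fix σ) * Nat.card (A ⊓ fix σ : Subgroup T) = Nat.card (fix σ) := by
    rw [mul_comm, Subgroup.relIndex, ← (A.subgroupOf (fix σ)).card_mul_index]
    congr 1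
    rw [← Subgroup.inf_subgroupOf_right A (fix σ)]
    exact (Nat.card_congr (Subgroup.subgroupOfEquivOfLe inf_le_right).toEquiv).symm
  have hdA : Nat.card (A ⊓ fix σ : Subgroup T) ∣ Nat.card A := Subgroup.card_dvd_of_le inf_le_left
  have hdC : Nat.card (A ⊓ fix σ : Subgroup T) ∣ Nat.card (fix σ) := Subgroup.card_dvd_of_le inf_le_right
  refine ⟨σ, hσ, h2, hout, ha3, ?_, ⟨_, hdA, hdC, ?_⟩, ?_⟩
  · intro k hk
    refine le_trans ?_ hE
    have hcop : Nat.Coprime (2 ^ k) (Nat.card (A ⊓ fix σ : Subgroup T)) :=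
      Nat.Coprime.pow_left _ (Nat.coprime_two_left.2 (hodd.of_dvd_nat hdA))
    rw [← hmul] at hk
    refine Nat.le_of_dvd ?_ (hcop.dvd_of_dvd_mul_right hk)
    rcases Nat.eq_zero_or_pos (A.relIndex (fix σ)) with h0 | h0
    · rw [h0, zero_mul] at hmul
      have : 0 < Nat.card (fix σ) := Nat.card_pos
      omega
    · exact h0
  · rw [← hmul]
    exact Nat.mul_le_mul_right _ hE
  · have h3 := h.small σ hσ h2
    have h4 := A.card_mul_index
    calc fx A σ ^ 6 * Nat.card A < A.index * Nat.card A := Nat.mul_lt_mul_of_pos_right h3 ha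
      _ = Nat.card T := by rw [mul_comm, h4]

/-- **No outer automorphisms.** -/
theorem killO_inner [IsSimpleGroup T] (hna : ∃ a b : T, a * b ≠ b * a) (h : ∀ σ : MulAut T, ∃ x, σ = MulAut.conj x) :
    KillO T := by
  intro A Γ hA hodd
  obtain ⟨σ, -, -, hout, -⟩ := exists_outer hna hA hodd
  obtain ⟨x, hx⟩ := h σ
  exact hout x hx

/-- the numerical part -/
theorem killO_num [IsSimpleGroup T] (hna : ∃ a b : T, a * b ≠ b * a)
    (h : OutP T fun σ => ∃ k : ℕ, 2 ^ k ∣ Nat.card (fix σ) ∧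
      Nat.card T ^ 6 ≤ Nat.card (fix σ) ^ 6 * (2 ^ (6 * k)) ^ 5) : KillO T := by
  intro A Γ hA hodd
  obtain ⟨σ, hσ, h2, hout, -, hk, ⟨d, hd, -, hc⟩, hlt⟩ := exists_outer hna hA hodd
  obtain ⟨k, h3, h4⟩ := h σ h2 hout
  have h5 := hk k h3
  set f := fx A σ
  set a := Nat.card A
  have ha : 0 < a := Nat.card_pos
  have hda : d ≤ a := Nat.le_of_dvd ha hd
  have h6 : Nat.card (fix σ) ≤ f * a := hc.trans (Nat.mul_le_mul_left _ hda)
  have h7 : (2 ^ (6 * k)) ≤ f ^ 6 := by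
    rw [mul_comm, pow_mul]
    exact Nat.pow_le_pow_left h5 6
  have h8 : Nat.card (fix σ) ^ 6 * (2 ^ (6 * k)) ^ 5 ≤ (f ^ 6 * a) ^ 6 := by
    calc Nat.card (fix σ) ^ 6 * (2 ^ (6 * k)) ^ 5 ≤ (f * a) ^ 6 * (f ^ 6) ^ 5 :=
          Nat.mul_le_mul (Nat.pow_le_pow_left h6 6) (Nat.pow_le_pow_left h7 5)
      _ = (f ^ 6 * a) ^ 6 := by ring
  have h9 : (f ^ 6 * a) ^ 6 < Nat.card T ^ 6 := Nat.pow_lt_pow_left hlt (by norm_num)
  omega

/-- **The criterion** `|T| ≤ c 2 ^ (5 k)`. -/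
theorem killO_of [IsSimpleGroup T] (hna : ∃ a b : T, a * b ≠ b * a) {k c : ℕ}
    (h : OutP T fun σ => 2 ^ k ∣ Nat.card (fix σ) ∧ c ≤ Nat.card (fix σ)) (hn : Nat.card T ≤ c * 2 ^ (5 * k)) :
    KillO T := by
  refine killO_num hna fun σ h2 hout => ⟨k, (h σ h2 hout).1, ?_⟩
  calc Nat.card T ^ 6 ≤ (c * 2 ^ (5 * k)) ^ 6 := Nat.pow_le_pow_left hn 6
    _ = c ^ 6 * (2 ^ (6 * k)) ^ 5 := by
      rw [mul_pow, ← pow_mul, ← pow_mul]
      congr 2
      ring
    _ ≤ _ := Nat.mul_le_mul_right _ (Nat.pow_le_pow_left (h σ h2 hout).2 6)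

/-- **The criterion** with the cube bound: `|T| ^ 2 ≤ 2 ^ (15 k)`. -/
theorem killO_cube [IsSimpleGroup T] (hna : ∃ a b : T, a * b ≠ b * a) (hcube : CubeBound T) {k : ℕ}
    (h : OutP T fun σ => 2 ^ k ∣ Nat.card (fix σ)) (hn : Nat.card T ^ 2 ≤ 2 ^ (15 * k)) : KillO T := by
  refine killO_num hna fun σ h2 hout => ⟨k, h σ h2 hout, ?_⟩
  have h1 : Nat.card T < Nat.card (fix σ) ^ 3 := hcube σ h2
  calc Nat.card T ^ 6 = Nat.card T ^ 2 * (Nat.card T ^ 2) ^ 2 := by ring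
    _ ≤ (Nat.card (fix σ) ^ 3) ^ 2 * (2 ^ (15 * k)) ^ 2 :=
        Nat.mul_le_mul (Nat.pow_le_pow_left h1.le 2) (Nat.pow_le_pow_left hn 2)
    _ = Nat.card (fix σ) ^ 6 * (2 ^ (6 * k)) ^ 5 := by
      rw [← pow_mul, ← pow_mul, ← pow_mul]
      congr 2
      ring

/-- **The criterion** `|T| ≤ 3 * 2 ^ (6 k)`. -/
theorem killO_three [IsSimpleGroup T] (hna : ∃ a b : T, a * b ≠ b * a) {k : ℕ}
    (h : OutP T fun σ => 2 ^ k ∣ Nat.card (fix σ)) (hn : Nat.card T ≤ 3 * 2 ^ (6 * k)) : KillO T := by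
  intro A Γ hA hodd
  obtain ⟨σ, hσ, h2, hout, h3, hk, -, hlt⟩ := exists_outer hna hA hodd
  have h5 := hk k (h σ h2 hout)
  have h7 : (2 ^ (6 * k)) ≤ fx A σ ^ 6 := by
    rw [mul_comm, pow_mul]
    exact Nat.pow_le_pow_left h5 6
  have h8 := Nat.mul_le_mul h3 h7
  rw [mul_comm (Nat.card A)] at h8
  omega

/-- **The criterion** with the divisors: `d` odd, dividing `|C_T(σ)|`; `a` odd, a multiple of `d`, dividing `|T|`. -/
theorem killO_dvd [IsSimpleGroup T] (hna : ∃ a b : T, a * b ≠ b * a)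
    (h : OutP T fun σ => ∀ d a f : ℕ, d ∣ Nat.card (fix σ) → Odd d → d ∣ a → a ∣ Nat.card T → 3 ≤ a →
      Nat.card (fix σ) ≤ f * d → Nat.card T ≤ f ^ 6 * a) : KillO T := by
  intro A Γ hA hodd
  obtain ⟨σ, hσ, h2, hout, h3, -, ⟨d, hd, hd', hc⟩, hlt⟩ := exists_outer hna hA hodd
  have := h σ h2 hout d (Nat.card A) (fx A σ) hd' (hodd.of_dvd_nat hd) hd (Subgroup.card_subgroup_dvd_card A) h3 hc
  omega

end Cfsg.Agent.H546.IFO
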